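import Cfsg.Agent.H152.QA.PTools
import Cfsg.Agent.H128.CS.PspOdd
import Cfsg.Agent.H123.RowPSp
import Cfsg.Agent.H306.QA.RatConj
import Cfsg.Agent.H973.QA.Rank
import Cfsg.Agent.S0270

/-!
# S4979, layer (A), row `PSp`, odd `s`: the primes `p ∤ s |Sp_{2m-2}(s)|` (helper722)

`psp_top`: CH criterion for an element of order `p`, `|C_S(x)| = (s ^ m ± 1) / 2`.
-/

set_option autoImplicit false
set_option linter.unusedSectionVars false

open Cfsg

namespace Cfsg.Agent.H722.QA

open Cfsg.Agent.H80.Fpf Cfsg.Agent.H152.QA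

/-! ### numbers -/

theorem big_step (u C : ℕ) (h : (u + 4) * (4 * u + 15) * 25 + 35 ≤ 8 * C) :
    (u + 5) * (4 * u + 19) * 25 + 35 ≤ 8 * (C * 7) := by
  nlinarith

theorem big_pow : ∀ u : ℕ, (u + 4) * (4 * u + 15) * 25 + 35 ≤ 8 * 7 ^ (u + 3)
  | 0 => by norm_num
  | u + 1 => by
    have h1 := big_step u _ (big_pow u)
    have e1 : 7 ^ (u + 1 + 3) = 7 ^ (u + 3) * 7 := pow_succ 7 (u + 3)
    have e2 : (u + 1 + 4) * (4 * (u + 1) + 15) = (u + 5) * (4 * u + 19) := by ring
    rw [e1, e2]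
    exact h1

theorem big_aux (t : ℕ) (ht : 3 ≤ t) : (t + 1) * (4 * t + 3) ≤ (8 * 7 ^ t - 35) / 25 := by
  obtain ⟨u, rfl⟩ : ∃ u, t = u + 3 := ⟨t - 3, by omega⟩
  have h1 := big_pow u
  have e : (u + 3 + 1) * (4 * (u + 3) + 3) = (u + 4) * (4 * u + 15) := by ring
  rw [e]
  exact (Nat.le_div_iff_mul_le (by norm_num)).2 (Nat.le_sub_of_add_le h1)

/-- the generic estimate -/
theorem big {s m : ℕ} (hs : 3 ≤ s) (ho : Odd s) (hm : 2 ≤ m) (hX : 49 ≤ s ^ m) :
    s ^ (m * (2 * m + 1)) ≤ 7 ^ ((8 * s ^ m - 35) / 25) := by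
  rw [pow_mul]
  obtain ⟨X, hXd⟩ : ∃ X, X = s ^ m := ⟨_, rfl⟩
  rw [← hXd] at hX ⊢
  rcases Nat.lt_or_ge X 343 with h1 | h1
  · -- finitely many cases
    have hm5 : m ≤ 5 := by
      by_contra hcon
      have h2 : 3 ^ 6 ≤ X := hXd ▸ (Nat.pow_le_pow_right (by norm_num) (by omega : 6 ≤ m)).trans (Nat.pow_le_pow_left hs m)
      omega
    interval_cases m
    · -- `m = 2`
      rcases Nat.lt_or_ge s 8 with h2 | h2
      · have h3 : s = 7 := by
          interval_cases s
          · omega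
          · omega
          · omega
          · omega
          · rfl
        rw [hXd, h3]; norm_num
      · have h3 : 64 ≤ X := by
          calc 64 = 8 ^ 2 := by norm_num
            _ ≤ s ^ 2 := Nat.pow_le_pow_left h2 2
            _ = X := hXd.symm
        calc X ^ (2 * 2 + 1) ≤ 343 ^ 5 := Nat.pow_le_pow_left h1.le 5
          _ = 7 ^ 15 := by norm_num
          _ ≤ _ := Nat.pow_le_pow_right (by norm_num) (by omega)
    · -- `m = 3`
      have h2 : 64 ≤ X := by
        rcases Nat.lt_or_ge s 4 with h3 | h3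
        · have h4 : s = 3 := by omega
          rw [hXd, h4] at hX
          norm_num at hX
        · calc 64 = 4 ^ 3 := by norm_num
            _ ≤ s ^ 3 := Nat.pow_le_pow_left h3 3
            _ = X := hXd.symm
      have h3 : 125 ≤ X := by
        rcases Nat.lt_or_ge s 5 with h3 | h3
        · have h4 : s = 3 := by
            obtain ⟨k, hk⟩ := ho
            omega
          rw [hXd, h4] at hX
          norm_num at hX
        · calc 125 = 5 ^ 3 := by norm_num
            _ ≤ s ^ 3 := Nat.pow_le_pow_left h3 3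
            _ = X := hXd.symm
      calc X ^ (2 * 3 + 1) ≤ 343 ^ 7 := Nat.pow_le_pow_left h1.le 7
        _ = 7 ^ 21 := by norm_num
        _ ≤ _ := Nat.pow_le_pow_right (by norm_num) (by omega)
    · -- `m = 4`
      have h3 : s = 3 := by
        by_contra hcon
        have h4 : 5 ≤ s := by
          obtain ⟨k, hk⟩ := ho
          omega
        have h5 : 5 ^ 4 ≤ X := hXd ▸ Nat.pow_le_pow_left h4 4
        omega
      rw [hXd, h3]; norm_num
    · -- `m = 5`
      have h3 : s = 3 := by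
        by_contra hcon
        have h4 : 5 ≤ s := by
          obtain ⟨k, hk⟩ := ho
          omega
        have h5 : 5 ^ 5 ≤ X := hXd ▸ Nat.pow_le_pow_left h4 5
        omega
      rw [hXd, h3]; norm_num
  · -- `X ≥ 343`
    set t := Nat.log 7 X with ht
    have hX0 : X ≠ 0 := by omega
    have h2 : 7 ^ t ≤ X := Nat.pow_log_le_self 7 hX0
    have h3 : X < 7 ^ (t + 1) := Nat.lt_pow_succ_log_self (by norm_num) X
    have h4 : 3 ≤ t := by
      rw [ht, Nat.le_log_iff_pow_le (by norm_num) hX0]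
      norm_num; exact h1
    have h5 : m ≤ 2 * t + 1 := by
      by_contra hcon
      have h6 : 3 ^ (2 * t + 2) ≤ X := hXd ▸
        (Nat.pow_le_pow_right (by norm_num) (by omega : 2 * t + 2 ≤ m)).trans (Nat.pow_le_pow_left hs m)
      have h7 : 7 ^ (t + 1) ≤ 3 ^ (2 * t + 2) := by
        rw [show 2 * t + 2 = 2 * (t + 1) by ring, pow_mul]
        exact Nat.pow_le_pow_left (by norm_num) _
      omega
    calc X ^ (2 * m + 1) ≤ (7 ^ (t + 1)) ^ (2 * m + 1) := Nat.pow_le_pow_left h3.le _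
      _ = 7 ^ ((t + 1) * (2 * m + 1)) := by rw [pow_mul]
      _ ≤ 7 ^ ((t + 1) * (4 * t + 3)) := Nat.pow_le_pow_right (by norm_num) (Nat.mul_le_mul_left _ (by omega))
      _ ≤ 7 ^ ((8 * 7 ^ t - 35) / 25) := Nat.pow_le_pow_right (by norm_num) (big_aux t h4)
      _ ≤ _ := Nat.pow_le_pow_right (by norm_num) (Nat.div_le_div_right (by omega))

/-- the exponent of the CH criterion -/
theorem expo {p B c : ℕ} (hp : 5 ≤ p) : (4 * (B - c) + 4) / 5 ≤ ((p - 1) * (B - c) + (p - 1)) / p := by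
  obtain ⟨k, rfl⟩ : ∃ k, p = k + 5 := ⟨p - 5, by omega⟩
  have h1 : (k + 5 - 1) * (B - c) + (k + 5 - 1) = (k + 4) * (B - c + 1) := by
    rw [show k + 5 - 1 = k + 4 by omega]; ring
  rw [h1, show 4 * (B - c) + 4 = 4 * (B - c + 1) by ring, Nat.le_div_iff_mul_le (by omega)]
  set D := B - c + 1
  have h2 : 4 * D / 5 * 5 ≤ 4 * D := Nat.div_mul_le_self _ _
  have h3 : 4 * D / 5 ≤ D := by omega
  have h4 : k * (4 * D / 5) ≤ k * D := Nat.mul_le_mul_left k h3
  have h5 : 4 * D / 5 * (k + 5) = k * (4 * D / 5) + 4 * D / 5 * 5 := by ring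
  have h6 : (k + 4) * D = k * D + 4 * D := by ring
  omega

/-! ### the group -/

theorem isCover_id {S : Type} [Group S] [Finite S] [IsSimpleGroup S] (h : ¬ IsMulCommutative S) :
    IsCover (MonoidHom.id S) where
  surj := Function.surjective_id
  central := by
    intro x hx
    have h1 : x = 1 := MonoidHom.mem_ker.1 hx
    rw [h1]; exact one_mem _
  perf := by
    rcases (inferInstance : (commutator S).Normal).eq_bot_or_eq_top with h1 | h1
    · exfalso
      apply h
      constructor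
      constructor
      intro a b
      have h2 : a * b * a⁻¹ * b⁻¹ ∈ commutator S :=
        Subgroup.commutator_mem_commutator (Subgroup.mem_top a) (Subgroup.mem_top b)
      rw [h1, Subgroup.mem_bot] at h2
      calc a * b = a * b * a⁻¹ * b⁻¹ * (b * a) := by group
        _ = b * a := by rw [h2, one_mul]
    · exact h1

section psp

variable {F : Type} [Field F] [Fintype F] {m p : ℕ}

theorem two_card (hm : 2 ≤ m) (ho : Odd (Fintype.card F)) :
    Nat.card (PSp m F) * 2 = Cfsg.Agent.H510.CS.sp (Fintype.card F) m := by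
  obtain ⟨l, hl⟩ := CharP.exists F
  obtain ⟨n', hlp, hn'⟩ := FiniteField.card F l
  obtain ⟨n, hn1, hn⟩ : ∃ n : ℕ, 1 ≤ n ∧ Fintype.card F = l ^ n := ⟨n', n'.2, hn'⟩
  have h1 := Cfsg.Agent.H510.CS.card_PSp (F := F) (n := m) hn hm
  have h2 : Nat.gcd 2 (l ^ n - 1) = 2 := by
    rw [← hn]
    obtain ⟨k, hk⟩ := ho
    rw [hk, Nat.add_sub_cancel]
    exact Nat.gcd_eq_left (dvd_mul_right 2 k)
  rw [h2, ← hn] at h1
  exact h1

/-- the order of `s` modulo `p` -/
theorem order_s (hm : 2 ≤ m) (ho : Odd (Fintype.card F)) (hp : p.Prime) (hd : p ∣ Nat.card (PSp m F))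
    (hpF : ¬ p ∣ Fintype.card F) (h1 : ¬ p ∣ Nat.card (Matrix.symplecticGroup (Fin (m - 1)) F)) :
    orderOf ((Fintype.card F : ℕ) : ZMod p) = 2 * m ∨
      (Odd m ∧ orderOf ((Fintype.card F : ℕ) : ZMod p) = m) := by
  have := Fact.mk hp
  set s := Fintype.card F with hs
  have hs0 : 0 < s := Fintype.card_pos
  have h2 := two_card (m := m) hm ho
  have h3 : p ∣ Cfsg.Agent.H510.CS.sp s m := by rw [← h2]; exact hd.mul_right 2
  rw [Cfsg.Agent.S0245.result hs.symm] at h1
  obtain ⟨k, rfl⟩ : ∃ k, m = k + 1 := ⟨m - 1, by omega⟩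
  rw [Nat.add_sub_cancel] at h1
  have h4 : ¬ p ∣ ∏ i ∈ Finset.range k, (s ^ (2 * (i + 1)) - 1) := fun h => h1 (h.mul_left _)
  have h5 : p ∣ s ^ (2 * (k + 1)) - 1 := by
    rw [Cfsg.Agent.H510.CS.sp, Finset.prod_range_succ] at h3
    rcases hp.dvd_mul.1 h3 with h6 | h6
    · exact absurd (hp.dvd_of_dvd_pow h6) hpF
    · rcases hp.dvd_mul.1 h6 with h7 | h7
      · exact absurd h7 h4
      · exact h7
  obtain ⟨e, he⟩ : ∃ e, e = orderOf ((s : ℕ) : ZMod p) := ⟨_, rfl⟩
  rw [← he]
  have h6 : e ∣ 2 * (k + 1) := Cfsg.Agent.H510.CS.dvd_of_ord he.symm hs0 h5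
  have h7 : ∀ j, 1 ≤ j → j ≤ k → ¬ e ∣ 2 * j := by
    intro j hj1 hjk h8
    apply h4
    refine (Cfsg.Agent.H510.CS.dvd_ord he.symm hs0 h8).trans ?_
    obtain ⟨i, rfl⟩ : ∃ i, j = i + 1 := ⟨j - 1, by omega⟩
    exact Finset.dvd_prod_of_mem (fun i => s ^ (2 * (i + 1)) - 1) (Finset.mem_range.2 (by omega))
  have he0 : 0 < e := Nat.pos_of_dvd_of_pos h6 (by omega)
  rcases Nat.even_or_odd e with h8 | h8
  · left
    obtain ⟨j, hj⟩ := h8.two_dvd
    rw [hj] at h6 ⊢
    have h9 : j ∣ k + 1 := Nat.dvd_of_mul_dvd_mul_left two_pos h6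
    have h10 := Nat.le_of_dvd (by omega) h9
    by_contra hcon
    exact h7 j (by omega) (by omega) (by rw [hj])
  · right
    have h9 : e ∣ k + 1 := (Nat.Coprime.dvd_mul_left h8.coprime_two_right).1 h6
    have h10 := Nat.le_of_dvd (by omega) h9
    have h11 : e = k + 1 := by
      by_contra hcon
      exact h7 e he0 (by omega) (dvd_mul_left e 2)
    exact ⟨h11 ▸ h8, h11⟩

/-- the centralizers -/
theorem cent (hm : 2 ≤ m) (ho : Odd (Fintype.card F)) (hp : p.Prime) (hd : p ∣ Nat.card (PSp m F))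
    (hpF : ¬ p ∣ Fintype.card F) (h1 : ¬ p ∣ Nat.card (Matrix.symplecticGroup (Fin (m - 1)) F)) {x : PSp m F}
    (hx : orderOf x = p) :
    (2 * m + 1 ≤ p ∧ p ∣ (Fintype.card F ^ m + 1) / 2 ∧
      Nat.card (Subgroup.centralizer ({x} : Set (PSp m F))) = (Fintype.card F ^ m + 1) / 2) ∨
    (3 ≤ m ∧ Odd m ∧ 2 * m + 1 ≤ p ∧ p ∣ (Fintype.card F ^ m - 1) / 2 ∧
      Nat.card (Subgroup.centralizer ({x} : Set (PSp m F))) = (Fintype.card F ^ m - 1) / 2) := by
  have := Fact.mk hp
  obtain ⟨l, hl⟩ := CharP.exists F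
  obtain ⟨n', hlp, hn'⟩ := FiniteField.card F l
  obtain ⟨n, hn1, hn⟩ : ∃ n : ℕ, 1 ≤ n ∧ Fintype.card F = l ^ n := ⟨n', n'.2, hn'⟩
  have h2 : Nat.gcd 2 (l ^ n - 1) = 2 := by
    rw [← hn]
    obtain ⟨k, hk⟩ := ho
    rw [hk, Nat.add_sub_cancel]
    exact Nat.gcd_eq_left (dvd_mul_right 2 k)
  have hself : Cfsg.Agent.H431.CS.Same (PSp m F) (PSp m F) := ⟨rfl, rfl⟩
  have hpx : p ∣ Nat.card (Subgroup.centralizer ({x} : Set (PSp m F))) := by
    have := Cfsg.Agent.H431.CS.dvd_cent (Commute.refl x) (dvd_refl (orderOf x))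
    rwa [hx] at this
  rcases order_s hm ho hp hd hpF h1 with h3 | ⟨h3, h4⟩
  · left
    rw [hn] at h3
    have h5 := Cfsg.Agent.H510.CS.lat_psp_top hlp hn1 hn hm hp h3
    obtain ⟨-, h6, h7, -⟩ := Cfsg.Agent.H510.CS.r_facts hlp hn1 hn hm hp h3
    have h8 := h5.card_cent hp hlp h7 hself (y := x) (by rw [hx])
    rw [h2, ← hn] at h8
    exact ⟨h6, h8 ▸ hpx, h8⟩
  · right
    have hm3 : 3 ≤ m := by
      obtain ⟨k, hk⟩ := h3
      omega
    rw [hn] at h4
    have h5 := Cfsg.Agent.H128.CS.lat_psp_odd hlp hn1 hn hm3 h3 hp h4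
    obtain ⟨h9, h6, h7⟩ := Cfsg.Agent.H128.CS.ro_facts hlp hn1 hm3 hp h4
    have h8 := h5.card_cent hp hlp h7 hself (y := x) (by rw [hx])
    rw [h2, ← hn] at h8
    refine ⟨hm3, h3, ?_, h8 ▸ hpx, h8⟩
    -- `m ∣ p - 1`, both odd / even
    have h10 : ((l ^ n : ℕ) : ZMod p) ≠ 0 := fun h => h9 ((ZMod.natCast_eq_zero_iff _ _).1 h)
    have h11 := ZMod.orderOf_dvd_card_sub_one h10
    rw [h4] at h11
    obtain ⟨c, hc⟩ := h11
    have h12 : Odd p := hp.odd_of_ne_two (by omega)
    obtain ⟨k, hk⟩ := h12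
    have h13 : Even (m * c) := by rw [← hc]; exact ⟨k, by omega⟩
    have h14 : Even c := by
      rcases Nat.even_mul.1 h13 with h | h
      · exact absurd h (Nat.not_even_iff_odd.2 h3)
      · exact h
    obtain ⟨j, rfl⟩ := h14
    have h15 : j ≠ 0 := by
      rintro rfl
      have := hp.two_le
      omega
    have h16 : m * 1 ≤ m * j := Nat.mul_le_mul_left m (by omega)
    have h17 : m * (j + j) = m * j + m * j := by ring
    omega

theorem card_lt (hm : 2 ≤ m) (ho : Odd (Fintype.card F)) :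
    Nat.card (PSp m F) < Fintype.card F ^ (m * (2 * m + 1)) := by
  have h1 := two_card (m := m) hm ho
  have hs0 : 0 < Fintype.card F := Fintype.card_pos
  have h2 : Cfsg.Agent.H510.CS.sp (Fintype.card F) m ≤ Fintype.card F ^ (m * (2 * m + 1)) := by
    have h3 : ∀ n : ℕ, ∏ i ∈ Finset.range n, (Fintype.card F ^ (2 * (i + 1)) - 1) ≤ Fintype.card F ^ (n * (n + 1)) := by
      intro n
      induction n with
      | zero => simp
      | succ n ih =>
        rw [Finset.prod_range_succ]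
        calc _ ≤ Fintype.card F ^ (n * (n + 1)) * Fintype.card F ^ (2 * (n + 1)) := Nat.mul_le_mul ih (Nat.sub_le _ _)
          _ = Fintype.card F ^ ((n + 1) * (n + 1 + 1)) := by rw [← pow_add]; congr 1; ring
    calc Cfsg.Agent.H510.CS.sp (Fintype.card F) m ≤ Fintype.card F ^ (m ^ 2) * Fintype.card F ^ (m * (m + 1)) :=
          Nat.mul_le_mul_left _ (h3 m)
      _ = _ := by rw [← pow_add]; congr 1; ring
  have h4 : 0 < Nat.card (PSp m F) := Nat.card_pos
  omega

/-- `2, 3, 5` divide `|S|` -/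
theorem dvd_235 (hm : 2 ≤ m) (ho : Odd (Fintype.card F)) {t : ℕ} (ht : t = 2 ∨ t = 3 ∨ t = 5) :
    t ∣ Nat.card (PSp m F) := by
  have h1 := two_card (m := m) hm ho
  obtain ⟨s, hs⟩ : ∃ s, s = Fintype.card F := ⟨_, rfl⟩
  rw [← hs] at h1 ho
  have hm4 : s ^ 4 ∣ s ^ (m ^ 2) := pow_dvd_pow s (by nlinarith)
  obtain ⟨k, rfl⟩ : ∃ k, m = k + 2 := ⟨m - 2, by omega⟩
  have h2 : s ^ 4 * (s ^ 2 - 1) * (s ^ 4 - 1) ∣ Cfsg.Agent.H510.CS.sp s (k + 2) := by
    rw [Cfsg.Agent.H510.CS.sp, Finset.prod_range_succ', Finset.prod_range_succ']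
    have e1 : s ^ (2 * (0 + 1)) - 1 = s ^ 2 - 1 := by norm_num
    have e2 : s ^ (2 * (0 + 1 + 1)) - 1 = s ^ 4 - 1 := by norm_num
    rw [e1, e2, mul_assoc]
    exact mul_dvd_mul hm4 ⟨∏ i ∈ Finset.range k, (s ^ (2 * (i + 1 + 1 + 1)) - 1), by ring⟩
  obtain ⟨j, hj⟩ := ho
  have e3 : s ^ 2 - 1 = 4 * (j * (j + 1)) := by
    have : s ^ 2 = 4 * (j * (j + 1)) + 1 := by rw [hj]; ring
    omega
  rcases ht with rfl | rfl | rfl
  · have h3 : 4 ∣ Cfsg.Agent.H510.CS.sp s (k + 2) := by
      refine Dvd.dvd.trans ?_ h2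
      rw [e3]
      exact ⟨s ^ 4 * (j * (j + 1)) * (s ^ 4 - 1), by ring⟩
    rw [← h1] at h3
    omega
  · have h3 : 3 ∣ s ^ 4 * (s ^ 2 - 1) * (s ^ 4 - 1) := by
      by_cases h4 : 3 ∣ s
      · exact ((h4.trans (dvd_pow_self s (by norm_num))).mul_right _).mul_right _
      · refine Dvd.dvd.mul_right (Dvd.dvd.mul_left ?_ _) _
        have h5 : s % 3 = 1 ∨ s % 3 = 2 := by omega
        have h6 : s ^ 2 % 3 = 1 := by
          rcases h5 with h5 | h5 <;> rw [Nat.pow_mod, h5]
        omega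
    have h4 := h3.trans h2
    rw [← h1] at h4
    exact (Nat.Coprime.dvd_mul_right (by norm_num)).1 h4
  · have h3 : 5 ∣ s ^ 4 * (s ^ 2 - 1) * (s ^ 4 - 1) := by
      by_cases h4 : 5 ∣ s
      · exact ((h4.trans (dvd_pow_self s (by norm_num))).mul_right _).mul_right _
      · refine Dvd.dvd.mul_left ?_ _
        have h5 : s % 5 = 1 ∨ s % 5 = 2 ∨ s % 5 = 3 ∨ s % 5 = 4 := by omega
        have h6 : s ^ 4 % 5 = 1 := by
          rcases h5 with h5 | h5 | h5 | h5 <;> rw [Nat.pow_mod, h5]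
        omega
    have h4 := h3.trans h2
    rw [← h1] at h4
    exact (Nat.Coprime.dvd_mul_right (by norm_num)).1 h4

end psp

theorem dvd_four {e : ℕ} (h : e ∣ 5 - 1) : e = 1 ∨ e = 2 ∨ e = 4 := by
  have h1 : e ≤ 4 := Nat.le_of_dvd (by norm_num) h
  interval_cases e
  · exact absurd h (by norm_num)
  · exact Or.inl rfl
  · exact Or.inr (Or.inl rfl)
  · exact absurd h (by norm_num)
  · exact Or.inr (Or.inr rfl)

/-- **piece (2) of the row `PSp`, odd `s`** -/
theorem psp_top {F : Type} [Field F] [Fintype F] (m : ℕ) (hm : 2 ≤ m) (ho : Odd (Fintype.card F)) {p q : ℕ} {V : Type}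
    [AddCommGroup V] [Finite V] [DistribMulAction (PSp m F) V] (h : PSit p q (PSp m F) V)
    (hpF : ¬ p ∣ Fintype.card F) (h1 : ¬ p ∣ Nat.card (Matrix.symplecticGroup (Fin (m - 1)) F)) : False := by
  classical
  have hpf := Fact.mk h.hp
  have h3 : 3 ≤ Fintype.card F := by
    have h4 : 1 < Fintype.card F := Fintype.one_lt_card
    obtain ⟨k, hk⟩ := ho
    omega
  have hsimp : IsSimpleGroup (PSp m F) := Cfsg.Agent.S0270.result m hm (fun _ => h3)
  have hnc : ¬ IsMulCommutative (PSp m F) := by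
    intro hc
    apply h.pZ
    have h4 : Subgroup.center (PSp m F) = ⊤ := by
      rw [eq_top_iff]
      intro a _
      rw [Subgroup.mem_center_iff]
      intro b
      exact hc.is_comm.comm b a
    rw [h4, Subgroup.card_top]
    exact h.pG
  have hψ := isCover_id hnc
  have h20 : (2 : F) ≠ 0 := by
    intro h4
    have hc2 : CharP F 2 := CharTwo.of_one_ne_zero_of_two_eq_zero one_ne_zero h4
    have h5 := (FiniteField.even_card_iff_char_two (F := F)).1 (ringChar.eq F 2)
    obtain ⟨k, hk⟩ := ho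
    omega
  have hB : Cfsg.Agent.H122.MinDeg (PSp m F) ((Fintype.card F ^ m - 1) / 2) :=
    (Cfsg.Agent.H123.RowPSp.minDeg_odd h20 (by omega)).of_surjective (QuotientGroup.mk' _) (QuotientGroup.mk'_surjective _)
  obtain ⟨x, hx⟩ := exists_prime_orderOf_dvd_card' p h.pG
  have hcent := cent hm ho h.hp h.pG hpF h1 hx
  have hC := fun c hc => h.ch_elt hψ hB (c := c) x hx hc
  obtain ⟨e, he, hN⟩ := Cfsg.Agent.H306.QA.exists_card_normalizer h.hp hx
  set N := Subgroup.normalizer ((Subgroup.zpowers x : Subgroup (PSp m F)) : Set (PSp m F)) with hNd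
  have hidx : Nat.card N * N.index = Nat.card (PSp m F) := N.card_mul_index
  have hp5 : 5 ≤ p := by rcases hcent with h4 | h4 <;> omega
  have hlt := card_lt (m := m) hm ho
  have hq7 : 7 ≤ q := by
    by_contra hcon
    have hqp := h.hq
    have hq1 := h.qG
    have h4 : q < 7 := by omega
    interval_cases q
    · exact absurd hqp (by norm_num)
    · exact absurd hqp (by norm_num)
    · exact hq1 (dvd_235 hm ho (Or.inl rfl))
    · exact hq1 (dvd_235 hm ho (Or.inr (Or.inl rfl)))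
    · exact absurd hqp (by norm_num)
    · exact hq1 (dvd_235 hm ho (Or.inr (Or.inr rfl)))
    · exact absurd hqp (by norm_num)
  rcases Nat.lt_or_ge (Fintype.card F ^ m) 49 with hX | hX
  · -- `(m, s) = (2, 3), (2, 5), (3, 3)`
    have hcard := two_card (m := m) hm ho
    have hm3 : m ≤ 3 := by
      by_contra hcon
      have h4 : 3 ^ 4 ≤ Fintype.card F ^ m :=
        (Nat.pow_le_pow_right (by norm_num) (by omega : 4 ≤ m)).trans (Nat.pow_le_pow_left h3 m)
      omega
    have hN5 : Nat.card (Subgroup.centralizer ({x} : Set (PSp m F))) * e * N.index = Nat.card (PSp m F) := by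
      rw [← hN]; exact hidx
    obtain ⟨s, hs⟩ : ∃ s, s = Fintype.card F := ⟨_, rfl⟩
    rw [← hs] at hX hcent hcard h3 ho hC
    rcases Nat.lt_or_ge m 3 with hm2 | hm2
    · obtain rfl : m = 2 := by omega
      have hs6 : s ≤ 6 := by
        by_contra hcon
        have h4 : 7 ^ 2 ≤ s ^ 2 := Nat.pow_le_pow_left (by omega) 2
        omega
      obtain ⟨h4, h5, h6⟩ : 5 ≤ p ∧ p ∣ (s ^ 2 + 1) / 2 ∧
          Nat.card (Subgroup.centralizer ({x} : Set (PSp 2 F))) = (s ^ 2 + 1) / 2 := by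
        rcases hcent with h4 | h4
        · exact h4
        · omega
      have hs35 : s = 3 ∨ s = 5 := by
        obtain ⟨k, hk⟩ := ho
        omega
      rcases hs35 with rfl | rfl
      · -- `PSp_4(3)`, `p = 5`
        have hS : Nat.card (PSp 2 F) = 25920 := by
          have h7 : Cfsg.Agent.H510.CS.sp 3 2 = 51840 := by
            norm_num [Cfsg.Agent.H510.CS.sp, Finset.prod_range_succ]
          omega
        rw [show (3 ^ 2 + 1) / 2 = 5 by norm_num] at h5 h6
        obtain rfl : p = 5 := (Nat.prime_dvd_prime_iff_eq h.hp Nat.prime_five).1 h5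
        obtain ⟨e', he', hN', hmod, hidx'⟩ := Cfsg.Agent.H306.QA.exists_card_normalizer' h.hp hx (by rw [hS]; norm_num)
        rw [← hNd] at hN' hmod hidx'
        rw [h6, hS] at hidx'
        have he5 : e' = 4 ∧ N.index = 1296 := by
          rcases dvd_four he' with rfl | rfl | rfl <;> omega
        obtain ⟨rfl, he6⟩ := he5
        have h7 := Cfsg.Agent.H973.QA.PSit.rank_one h hψ (e := 4) x hx he'
          (fun k hk => Cfsg.Agent.H306.QA.isConj_pow_of_card h.hp hx hN' hk)
        rw [← hNd, he6] at h7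
        have h8 : 7 ^ 4 ≤ q ^ 4 := Nat.pow_le_pow_left hq7 4
        norm_num at h8
        omega
      · -- `PSp_4(5)`, `p = 13`
        have hS : Nat.card (PSp 2 F) = 4680000 := by
          have h7 : Cfsg.Agent.H510.CS.sp 5 2 = 9360000 := by
            norm_num [Cfsg.Agent.H510.CS.sp, Finset.prod_range_succ]
          omega
        rw [show (5 ^ 2 + 1) / 2 = 13 by norm_num] at h5 h6
        obtain rfl : p = 13 := (Nat.prime_dvd_prime_iff_eq h.hp (by norm_num)).1 h5
        have h7 := hC 4 (by rw [h6]; norm_num)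
        norm_num at h7
        have h8 : 7 ^ 8 ≤ q ^ 8 := Nat.pow_le_pow_left hq7 8
        norm_num at h8
        have h9 : N.index ≤ Nat.card (PSp 2 F) := by
          rw [← hidx]
          exact Nat.le_mul_of_pos_left _ Nat.card_pos
        omega
    · obtain rfl : m = 3 := by omega
      obtain rfl : s = 3 := by
        by_contra hcon
        have h4 : 5 ^ 3 ≤ s ^ 3 := Nat.pow_le_pow_left (by obtain ⟨k, hk⟩ := ho; omega) 3
        omega
      have hS : Nat.card (PSp 3 F) = 4585351680 := by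
        have h7 : Cfsg.Agent.H510.CS.sp 3 3 = 9170703360 := by
          norm_num [Cfsg.Agent.H510.CS.sp, Finset.prod_range_succ]
        omega
      have hq11 : 11 ≤ q := by
        by_contra hcon
        have hqp := h.hq
        have hq1 := h.qG
        rw [hS] at hq1
        have h4 : q < 11 := by omega
        interval_cases q
        · exact hq1 (by norm_num)
        · exact absurd hqp (by norm_num)
        · exact absurd hqp (by norm_num)
        · exact absurd hqp (by norm_num)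
      rcases hcent with ⟨h4, h5, h6⟩ | ⟨-, -, h4, h5, h6⟩
      · -- `p = 7`
        rw [show (3 ^ 3 + 1) / 2 = 14 by norm_num] at h5 h6
        obtain rfl : p = 7 := by
          have h8 : p ∣ 2 * 7 := h5
          rcases h.hp.dvd_mul.1 h8 with h9 | h9
          · exact absurd (Nat.le_of_dvd (by norm_num) h9) (by omega)
          · exact (Nat.prime_dvd_prime_iff_eq h.hp (by norm_num)).1 h9
        obtain ⟨e', he', hN', hmod, hidx'⟩ := Cfsg.Agent.H306.QA.exists_card_normalizer' h.hp hx (by rw [hS]; norm_num)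
        rw [← hNd] at hN' hmod hidx'
        rw [h6, hS] at hidx'
        have h7 := hC 4 (by rw [h6]; norm_num)
        norm_num at h7
        have h8 : 11 ^ 8 ≤ q ^ 8 := Nat.pow_le_pow_left hq11 8
        norm_num at h8
        rcases e' with _ | _ | e'
        · omega
        · omega
        · have h9 : 28 * N.index ≤ 14 * (e' + 1 + 1) * N.index := Nat.mul_le_mul_right _ (by omega)
          omega
      · -- `p = 13`
        rw [show (3 ^ 3 - 1) / 2 = 13 by norm_num] at h5 h6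
        obtain rfl : p = 13 := (Nat.prime_dvd_prime_iff_eq h.hp (by norm_num)).1 h5
        have h7 := hC 4 (by rw [h6]; norm_num)
        norm_num at h7
        have h8 : 11 ^ 9 ≤ q ^ 9 := Nat.pow_le_pow_left hq11 9
        norm_num at h8
        rw [h6, hS] at hN5
        rcases e with _ | e
        · omega
        · have h9 : 13 * N.index ≤ 13 * (e + 1) * N.index := Nat.mul_le_mul_right _ (by omega)
          omega
  · -- the generic case
    have hbig := big h3 ho hm hX
    have hXo : Odd (Fintype.card F ^ m) := ho.pow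
    generalize Fintype.card F ^ m = X at hX hbig hXo hcent hC
    have hcc : Nat.card (Subgroup.centralizer ({x} : Set (PSp m F))) ≤ ((X + 10) / 10) ^ 2 := by
      have h4 : X + 1 ≤ 10 * ((X + 10) / 10) := by omega
      have h5 : (X + 1) / 2 ≤ ((X + 10) / 10) ^ 2 := by
        generalize (X + 10) / 10 = c at h4
        have h6 : 50 * (X + 1) ≤ (X + 1) * (X + 1) := Nat.mul_le_mul_right _ (by omega)
        have h7 : (X + 1) * (X + 1) ≤ (10 * c) * (10 * c) := Nat.mul_le_mul h4 h4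
        have h8 : (10 * c) * (10 * c) = 100 * c ^ 2 := by ring
        omega
      rcases hcent with h6 | h6
      · rw [h6.2.2]; exact h5
      · rw [h6.2.2.2.2]; omega
    have h4 := hC _ hcc
    have h5 := expo (B := (X - 1) / 2) (c := (X + 10) / 10) hp5
    have h6 : (8 * X - 35) / 25 ≤ (4 * ((X - 1) / 2 - (X + 10) / 10) + 4) / 5 := by
      obtain ⟨k, hk⟩ := hXo
      omega
    have h7 : 7 ^ ((8 * X - 35) / 25) ≤ N.index := by
      calc 7 ^ ((8 * X - 35) / 25) ≤ 7 ^ (((p - 1) * ((X - 1) / 2 - (X + 10) / 10) + (p - 1)) / p) :=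
            Nat.pow_le_pow_right (by norm_num) (h6.trans h5)
        _ ≤ q ^ _ := Nat.pow_le_pow_left hq7 _
        _ ≤ _ := h4
    have h8 : N.index ≤ Nat.card (PSp m F) := by
      rw [← hidx]
      exact Nat.le_mul_of_pos_left _ Nat.card_pos
    omega

end Cfsg.Agent.H722.QA
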